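import Cfsg.Agent.H7.J4Core
import Cfsg.Agent.H7.J4Norm
import Cfsg.Agent.KFacts.J4.Base
import Cfsg.Agent.J4Type.Final
import Cfsg.Agent.S1703
import Cfsg.Agent.S1821
import Cfsg.Agent.S0813
import Cfsg.Agent.S0245
import Cfsg.Agent.S0246
import Cfsg.Agent.S0248
import Cfsg.Agent.S0249
import Cfsg.Agent.S1059
import Cfsg.Agent.CpQuot.Congr

/-!
# The row `J4` (helper7)

`G ≃ J4`, `IsQTKE G`, `T` a Sylow 2-subgroup, `L ∈ ℒ_f*(G, T)`:

* `norm`: `T` normalizes `L` (even for all `L ∈ ℒ(G, T)`);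
* `no_lie`: `L / O_2(L)` is not `L₂(q)`, `L₃(q)`, `SL₃(q)`, `PSp₄(q)`, `G₂(q)` with `q ≥ 4` even;
* `no_psl`: `L / O_2(L)` is not `L₄(2)` or `L₅(2)`.
-/

set_option autoImplicit false

namespace Cfsg.Agent.H7.J4Row

open Cfsg Subgroup Cfsg.Agent.H4 Cfsg.Agent.H7.J4Norm

universe u v

/-! ### the group -/

theorem exists_frame {G : Type u} [Group G] [IsSimpleGroup G] (hJ : Spor.IsoJ4 G) :
    Nonempty (J4Type.Frame G) ∧ Nat.card G = ord ∧
      ∃ x y : G, ∀ t : G, orderOf t = 2 → IsConj t x ∨ IsConj t y := by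
  obtain ⟨-, -, ⟨C⟩⟩ := Cfsg.Agent.KFacts.J4.Base.exists_full hJ
  obtain ⟨e⟩ := hJ
  obtain ⟨h1, x, y, -, -, -, h2⟩ := Cfsg.Agent.J4Type.Final.isJ4_and_classes Cfsg.Agent.S1703.result
    (f := e.symm.toMonoidHom) e.symm.bijective
  exact ⟨⟨C.C.toFrame⟩, h1.2, x, y, h2⟩

theorem two_pow_le {k : ℕ} (h : 2 ^ k ∣ ord) : k ≤ 21 := by
  have h3 : ord = 2 ^ 21 * (3 ^ 3 * (5 * (7 * (11 ^ 3 * (23 * (29 * (31 * (37 * 43)))))))) := by norm_num
  rw [h3] at h
  have h5 : Nat.Coprime (2 ^ k) (3 ^ 3 * (5 * (7 * (11 ^ 3 * (23 * (29 * (31 * (37 * 43)))))))) :=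
    Nat.Coprime.pow_left k (by norm_num)
  exact (Nat.pow_dvd_pow_iff_le_right (by norm_num)).1 (h5.dvd_of_dvd_mul_right h)

theorem card_sylow {G : Type u} [Group G] [Finite G] (hcard : Nat.card G = ord) (T : Sylow 2 G) :
    Nat.card ↥(T : Subgroup G) = 2 ^ 21 := by
  have : Fact (Nat.Prime 2) := ⟨Nat.prime_two⟩
  obtain ⟨k, hk⟩ := IsPGroup.iff_card.1 T.isPGroup'
  have h1 : k ≤ 21 := two_pow_le (by rw [← hk, ← hcard]; exact Subgroup.card_subgroup_dvd_card _)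
  have h2 : 2 ^ 21 ∣ Nat.card ↥(T : Subgroup G) := by
    apply T.pow_dvd_card_of_pow_dvd_card
    rw [hcard]; norm_num
  rw [hk] at h2 ⊢
  have h3 : 21 ≤ k := (Nat.pow_dvd_pow_iff_le_right (by norm_num)).1 h2
  rw [le_antisymm h1 h3]

/-! ### transfer -/

theorem card_mulAut_quo {X : Type u} {Y : Type v} [Group X] [Group Y] (e : X ≃* Y) :
    Nat.card (MulAut (X ⧸ center X)) = Nat.card (MulAut (Y ⧸ center Y)) :=
  Nat.card_congr (MulAut.congr (QuotientGroup.congr (center X) (center Y) e (LfTrans.map_center e))).toEquiv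

/-- the main exclusion -/
theorem false_of_iso {G : Type u} [Group G] [Finite G] [IsSimpleGroup G] (hG : ¬ IsMulCommutative G)
    (hQ : IsQTKE G) (hJ : Spor.IsoJ4 G) (T : Sylow 2 G) {L : Subgroup G} (hL : L ∈ calLfMax (T : Subgroup G))
    {X : Type v} [Group X] (e : (↥L ⧸ pCore 2 ↥L) ≃* X) (hq : IsQuasisimple X) (h23 : ¬ 23 ∣ Nat.card X)
    (h : ¬ 2 ^ 10 ∣ Nat.card (MulAut (X ⧸ center X)) ∨
      (31 ∣ Nat.card X ∧ ¬ 2 ^ 12 ∣ Nat.card (MulAut (X ⧸ center X)))) : False := by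
  obtain ⟨⟨F⟩, hcard, hcls⟩ := exists_frame hJ
  obtain ⟨T₀, hTN, hTz⟩ := Cfsg.Agent.H7.J4Weak.exists_sylow F
  obtain ⟨g, hg⟩ := LfTrans.exists_conj T T₀
  have hL0 : L.map (MulAut.conj g).toMonoidHom ∈ calLfMax (T₀ : Subgroup G) := by
    rw [hg]
    exact LfTrans.map_mem_calLfMax _ hL
  obtain ⟨e1⟩ := LfTrans.nonempty_quot ⟨LfTrans.sm (MulAut.conj g) L⟩
  set L₀ : Subgroup G := L.map (MulAut.conj g).toMonoidHom with hL₀
  have e0 : (↥L₀ ⧸ pCore 2 ↥L₀) ≃* X := e1.symm.trans e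
  have S : J4Core.Sit F T₀ L₀ :=
    { card := card_sylow hcard T₀
      hTN := hTN
      hTz := hTz
      hE := hQ.2.2
      hL := ⟨hL0.1.1, hL0.2⟩
      hTL := le_normalizer hG hQ hcard T₀ hL0.1.1
      hq := (Cfsg.Agent.CpQuot.Congr.isQuasisimple_iff e0).2 hq
      hup := (Cfsg.Agent.S1821.result hG hQ T₀ L₀ hL0.1).1
      h23 := by rw [Nat.card_congr e0.toEquiv]; exact h23 }
  rcases h with h | ⟨h31, h12⟩
  · apply h
    rw [← card_mulAut_quo e0]
    exact S.two_pow_dvd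
  · refine S.false_of_31 hcls ?_ ?_
    · rw [← Nat.card_congr e0.toEquiv] at h31
      exact h31.trans (Subgroup.card_quotient_dvd_card (pCore 2 ↥L₀))
    · rw [card_mulAut_quo e0]; exact h12

/-- `L / O_2(L)` is not solvable -/
theorem quot_not_solvable {G : Type u} [Group G] [Finite G] (T : Sylow 2 G) {L : Subgroup G}
    (hL : L ∈ calL (T : Subgroup G)) : ¬ Group.IsSolvable (↥L ⧸ pCore 2 ↥L) := by
  have h2f : Fact (Nat.Prime 2) := ⟨Nat.prime_two⟩
  intro hs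
  apply Lf.not_solvable hL
  have hpg : Group.IsSolvable ↥(pCore 2 ↥L) := by
    have := (Cfsg.Agent.Lib.Cores.pCore_isPGroup (G := ↥L) 2).isNilpotent
    infer_instance
  have hN : (pCore 2 ↥L).Normal := Cfsg.Agent.Lib.Cores.pCore_normal 2
  exact Group.isSolvable_of_ker_le_range (pCore 2 ↥L).subtype (QuotientGroup.mk' (pCore 2 ↥L)) (by
    rw [QuotientGroup.ker_mk', range_subtype])

/-- the simple case -/
theorem false_of_simple {G : Type u} [Group G] [Finite G] [IsSimpleGroup G] (hG : ¬ IsMulCommutative G)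
    (hQ : IsQTKE G) (hJ : Spor.IsoJ4 G) (T : Sylow 2 G) {L : Subgroup G} (hL : L ∈ calLfMax (T : Subgroup G))
    {X : Type v} [Group X] [IsSimpleGroup X] (e : (↥L ⧸ pCore 2 ↥L) ≃* X) (h23 : ¬ 23 ∣ Nat.card X)
    (h : ¬ 2 ^ 10 ∣ Nat.card (MulAut X) ∨ (31 ∣ Nat.card X ∧ ¬ 2 ^ 12 ∣ Nat.card (MulAut X))) : False := by
  have hns : ¬ Group.IsSolvable X := fun hs => quot_not_solvable T hL.1.1
    (Group.isSolvable_of_surjective (f := e.symm.toMonoidHom) e.symm.surjective)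
  have hz : center X = ⊥ := by
    rcases (inferInstance : (center X).Normal).eq_bot_or_eq_top with h1 | h1
    · exact h1
    · exfalso
      apply hns
      exact Group.isSolvable_of_comm fun a b => mem_center_iff.1 (h1 ▸ mem_top b : b ∈ center X) a
  have hc : Nat.card (MulAut (X ⧸ center X)) = Nat.card (MulAut X) :=
    Nat.card_congr (MulAut.congr ((QuotientGroup.quotientMulEquivOfEq hz).trans QuotientGroup.quotientBot)).toEquiv
  exact false_of_iso hG hQ hJ T hL e (H5.Small.quasi_of_simple hns) h23 (by rw [hc]; exact h)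

/-! ### orders -/

theorem card_pgl {F : Type} [Field F] [Fintype F] (n : ℕ) (hn : 1 ≤ n) :
    Nat.card (Matrix.ProjGenLinGroup (Fin n) F) * (Fintype.card F - 1) =
      ∏ i : Fin n, (Fintype.card F ^ n - Fintype.card F ^ (i : ℕ)) := by
  have : Nonempty (Fin n) := ⟨⟨0, by omega⟩⟩
  rw [Cfsg.Agent.ClassicalGeometry.PSL2Basic.card_PGL_mul, Matrix.card_GL_field]

variable {G : Type u} [Group G] [Finite G] [IsSimpleGroup G]

theorem norm (hG : ¬ IsMulCommutative G) (hQ : IsQTKE G) (hJ : Spor.IsoJ4 G) (T : Sylow 2 G) {L : Subgroup G}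
    (hL : L ∈ calL (T : Subgroup G)) : (T : Subgroup G) ≤ normalizer (L : Set G) :=
  le_normalizer hG hQ (exists_frame hJ).2.1 T hL

omit [Finite G] in
theorem dvd_ord (hJ : Spor.IsoJ4 G) (L : Subgroup G) : Nat.card (↥L ⧸ pCore 2 ↥L) ∣ ord := by
  rw [← (exists_frame hJ).2.1]
  exact (Subgroup.card_quotient_dvd_card (pCore 2 ↥L)).trans (Subgroup.card_subgroup_dvd_card L)

theorem psl_three_cases {f : ℕ} (hf : 2 ≤ f) {c d : ℕ} (hd : d ∣ 3)
    (h : d * ((2 ^ f - 1) * c) = ∏ i : Fin 3, ((2 ^ f) ^ 3 - (2 ^ f) ^ (i : ℕ))) (hc : c ∣ ord) : f = 2 := by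
  have h1 : ∏ i : Fin 3, ((2 ^ f) ^ 3 - (2 ^ f) ^ (i : ℕ)) =
      ((2 ^ f) ^ 3 - 1) * ((2 ^ f) ^ 3 - 2 ^ f) * ((2 ^ f) ^ 3 - (2 ^ f) ^ 2) := by
    simp [Fin.prod_univ_succ, mul_assoc]
  rw [h1] at h
  have h2 : ((2 ^ f) ^ 3 - 1) * ((2 ^ f) ^ 3 - 2 ^ f) * ((2 ^ f) ^ 3 - (2 ^ f) ^ 2) ∣ 3 * ((2 ^ f - 1) * ord) := by
    rw [← h]
    exact mul_dvd_mul hd (mul_dvd_mul_left _ hc)
  have h3 : 2 ^ (3 * f) ∣ 3 * ((2 ^ f - 1) * ord) := by
    refine Dvd.dvd.trans ?_ h2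
    have e1 : (2 ^ f) ^ 3 - 2 ^ f = 2 ^ f * ((2 ^ f) ^ 2 - 1) := by
      rw [Nat.mul_sub, mul_one]; congr 1; ring
    have e2 : (2 ^ f) ^ 3 - (2 ^ f) ^ 2 = (2 ^ f) ^ 2 * (2 ^ f - 1) := by
      rw [Nat.mul_sub, mul_one]; congr 1
    rw [e1, e2]
    exact ⟨((2 ^ f) ^ 3 - 1) * ((2 ^ f) ^ 2 - 1) * (2 ^ f - 1), by ring⟩
  have hodd : Nat.Coprime (2 ^ (3 * f)) (2 ^ f - 1) := by
    apply Nat.Coprime.pow_left
    rw [Nat.coprime_two_left]
    have : Even (2 ^ f) := (Nat.even_pow).2 ⟨even_two, by omega⟩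
    exact Nat.Even.sub_odd (Nat.one_le_two_pow) this odd_one
  have h4 : 2 ^ (3 * f) ∣ ord := by
    have h5 := (Nat.Coprime.pow_left (3 * f) (by norm_num : Nat.Coprime 2 3)).dvd_of_dvd_mul_left h3
    exact hodd.dvd_of_dvd_mul_left h5
  have h5 := two_pow_le h4
  have h6 : f ≤ 7 := by omega
  interval_cases f
  · rfl
  all_goals (exfalso; revert h2; norm_num)

theorem no_lie (hG : ¬ IsMulCommutative G) (hQ : IsQTKE G) (hJ : Spor.IsoJ4 G) (T : Sylow 2 G) {L : Subgroup G}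
    (hL : L ∈ calLfMax (T : Subgroup G)) :
    ¬ (∃ (F : Type) (_ : Field F) (_ : Fintype F), CharP F 2 ∧ 4 ≤ Fintype.card F ∧
        (Nonempty (↥L ⧸ Cfsg.pCore 2 ↥L ≃* Matrix.ProjectiveSpecialLinearGroup (Fin 2) F) ∨
          Nonempty (↥L ⧸ Cfsg.pCore 2 ↥L ≃* Matrix.ProjectiveSpecialLinearGroup (Fin 3) F) ∨
          Nonempty (↥L ⧸ Cfsg.pCore 2 ↥L ≃* Matrix.SpecialLinearGroup (Fin 3) F) ∨
          Nonempty (↥L ⧸ Cfsg.pCore 2 ↥L ≃* Cfsg.PSp 2 F) ∨
          Nonempty (↥L ⧸ Cfsg.pCore 2 ↥L ≃* ↥(Cfsg.Lie.chevG2.group F)))) := by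
  rintro ⟨F, _, _, hch, h4, h⟩
  have : Fact (Nat.Prime 2) := ⟨Nat.prime_two⟩
  have hd := dvd_ord hJ L
  obtain ⟨n, -, hn⟩ := FiniteField.card F 2
  set f : ℕ := (n : ℕ) with hf
  have hf2 : 2 ≤ f := by
    by_contra hlt
    have h1 : f = 1 := by have := n.pos; omega
    rw [hn, h1] at h4
    norm_num at h4
  have hcases : ∀ {m : ℕ}, 2 ≤ m → (m = 2 → 4 ≤ 2 ^ f) := fun _ _ => by rw [← hn]; exact h4
  rcases h with ⟨⟨e⟩⟩ | ⟨⟨e⟩⟩ | ⟨⟨e⟩⟩ | ⟨⟨e⟩⟩ | ⟨⟨e⟩⟩
  · -- L2(q)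
    have hs : IsSimpleGroup (Matrix.ProjectiveSpecialLinearGroup (Fin 2) F) :=
      Cfsg.Agent.TwoFusion.SLTwoFacts.isSimpleGroup_psl (by omega)
    have hev : Even (Fintype.card F) := by
      rw [hn]
      exact (Nat.even_pow).2 ⟨even_two, by omega⟩
    have hc := Cfsg.Agent.ClassicalGeometry.PSL2Basic.card_PSL2_even F hev
    rw [Nat.card_congr e.toEquiv, hc, hn] at hd
    have ha := Cfsg.Agent.S0813.result 2 f (by omega) hn 2 le_rfl (hcases le_rfl)
    have hp := card_pgl (F := F) 2 (by norm_num)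
    rw [hn] at hc
    rw [hn] at hp
    have hp' : Nat.card (Matrix.ProjGenLinGroup (Fin 2) F) * (2 ^ f - 1) =
        ((2 ^ f) ^ 2 - 1) * ((2 ^ f) ^ 2 - 2 ^ f) := by
      rw [hp]; simp [Fin.prod_univ_succ]
    refine false_of_simple hG hQ hJ T hL e ?_ (Or.inl ?_)
    · rw [hc]
      rcases two_pow_cases hf2 hd with h | h | h <;> rw [h] <;> norm_num
    · rw [ha]
      rcases two_pow_cases hf2 hd with h | h | h <;> rw [h] at hp' ⊢ <;> norm_num at hp' ⊢
      · have : Nat.card (Matrix.ProjGenLinGroup (Fin 2) F) = 60 := by omega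
        rw [this]; norm_num
      · have : Nat.card (Matrix.ProjGenLinGroup (Fin 2) F) = 504 := by omega
        rw [this]; norm_num
      · have : Nat.card (Matrix.ProjGenLinGroup (Fin 2) F) = 32736 := by omega
        rw [this]; norm_num
  · -- L3(q)
    have hs : IsSimpleGroup (Matrix.ProjectiveSpecialLinearGroup (Fin 3) F) := Cfsg.Agent.S0249.result 3 le_rfl
    have h43 := Cfsg.Agent.S0243.result hn 3 (by norm_num)
    rw [Nat.card_congr e.toEquiv] at hd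
    have hf' : f = 2 := psl_three_cases hf2 (Nat.gcd_dvd_left 3 (2 ^ f - 1)) h43 hd
    have ha := Cfsg.Agent.S0813.result 2 f (by omega) hn 3 (by norm_num) (by norm_num)
    have hp := card_pgl (F := F) 3 (by norm_num)
    rw [hn, hf'] at hp
    rw [hf'] at h43
    simp only [Fin.prod_univ_succ, Fin.prod_univ_zero] at hp h43
    norm_num [Fin.val_succ] at hp h43
    have hp' : Nat.card (Matrix.ProjGenLinGroup (Fin 3) F) = 60480 := by omega
    have hc' : Nat.card (Matrix.ProjectiveSpecialLinearGroup (Fin 3) F) = 20160 := by omega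
    refine false_of_simple hG hQ hJ T hL e ?_ (Or.inl ?_)
    · rw [hc']; norm_num
    · rw [ha, hp', hf']; norm_num
  · -- SL3(q)
    have hs : IsSimpleGroup (Matrix.ProjectiveSpecialLinearGroup (Fin 3) F) := Cfsg.Agent.S0249.result 3 le_rfl
    have h43 := Cfsg.Agent.S0243.result hn 3 (by norm_num)
    have hdq : Nat.card (Matrix.ProjectiveSpecialLinearGroup (Fin 3) F) ∣
        Nat.card (Matrix.SpecialLinearGroup (Fin 3) F) :=
      Subgroup.card_quotient_dvd_card (center (Matrix.SpecialLinearGroup (Fin 3) F))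
    rw [Nat.card_congr e.toEquiv] at hd
    have hf' : f = 2 := psl_three_cases hf2 (Nat.gcd_dvd_left 3 (2 ^ f - 1)) h43 (hdq.trans hd)
    have ha := Cfsg.Agent.S0813.result 2 f (by omega) hn 3 (by norm_num) (by norm_num)
    have hp := card_pgl (F := F) 3 (by norm_num)
    rw [hn, hf'] at hp
    simp only [Fin.prod_univ_succ, Fin.prod_univ_zero] at hp
    norm_num [Fin.val_succ] at hp
    have hp' : Nat.card (Matrix.ProjGenLinGroup (Fin 3) F) = 60480 := by omega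
    have hsl : Nat.card (Matrix.SpecialLinearGroup (Fin 3) F) = 60480 := by
      rw [← Cfsg.Agent.S0265.result 3, hp']
    refine false_of_iso hG hQ hJ T hL e ⟨⟨Cfsg.Agent.S0248.result 3 le_rfl⟩, hs⟩ ?_ (Or.inl ?_)
    · rw [hsl]; norm_num
    · have ha' : Nat.card (MulAut (Matrix.SpecialLinearGroup (Fin 3) F ⧸ center (Matrix.SpecialLinearGroup (Fin 3) F))) =
          (if 3 = 2 then 1 else 2) * f * Nat.card (Matrix.ProjGenLinGroup (Fin 3) F) := ha
      rw [ha', hp', hf']; norm_num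
  · -- PSp4(q)
    have hc : Nat.card (PSp 2 F) * Nat.card ↥(center (Matrix.symplecticGroup (Fin 2) F)) =
        Nat.card (Matrix.symplecticGroup (Fin 2) F) :=
      (Subgroup.card_eq_card_quotient_mul_card_subgroup (center (Matrix.symplecticGroup (Fin 2) F))).symm
    rw [Cfsg.Agent.S0245.result hn 2, Cfsg.Agent.S0246.result hn 2 (by norm_num)] at hc
    have hg : Nat.gcd 2 (2 ^ f - 1) = 1 := by
      rw [← Nat.coprime_iff_gcd_eq_one, Nat.coprime_two_left]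
      have : Even (2 ^ f) := (Nat.even_pow).2 ⟨even_two, by omega⟩
      exact Nat.Even.sub_odd (Nat.one_le_two_pow) this odd_one
    rw [hg, mul_one] at hc
    rw [Nat.card_congr e.toEquiv, hc] at hd
    have h1 : 2 ^ (4 * f) ∣ ord := by
      refine Dvd.dvd.trans ?_ hd
      rw [← pow_mul, mul_comm f]
      exact Dvd.intro _ rfl
    have h2 := two_pow_le h1
    have h3 : f ≤ 5 := by omega
    simp only [Finset.prod_range_succ, Finset.prod_range_zero] at hd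
    clear_value f
    interval_cases f <;> (revert hd; norm_num)
  · -- G2(q)
    rw [Nat.card_congr e.toEquiv, Cfsg.Agent.S1059.result hn] at hd
    have h1 : 2 ^ (6 * f) ∣ ord := by
      refine Dvd.dvd.trans ?_ hd
      rw [← pow_mul, mul_comm f, mul_assoc]
      exact Dvd.intro _ rfl
    have h2 := two_pow_le h1
    have h3 : f ≤ 3 := by omega
    clear_value f
    interval_cases f <;> (revert hd; norm_num)

theorem no_psl (hG : ¬ IsMulCommutative G) (hQ : IsQTKE G) (hJ : Spor.IsoJ4 G) (T : Sylow 2 G) {L : Subgroup G}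
    (hL : L ∈ calLfMax (T : Subgroup G)) :
    ¬ (∃ (F : Type) (_ : Field F) (_ : Fintype F), Fintype.card F = 2 ∧
      (Nonempty ((↥L ⧸ Cfsg.pCore 2 ↥L) ≃* Matrix.ProjectiveSpecialLinearGroup (Fin 4) F) ∨
        Nonempty ((↥L ⧸ Cfsg.pCore 2 ↥L) ≃* Matrix.ProjectiveSpecialLinearGroup (Fin 5) F))) := by
  rintro ⟨F, _, _, h2, h⟩
  have : Fact (Nat.Prime 2) := ⟨Nat.prime_two⟩
  have hn : Fintype.card F = 2 ^ 1 := by rw [h2]; rfl
  rcases h with ⟨⟨e⟩⟩ | ⟨⟨e⟩⟩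
  · have hs : IsSimpleGroup (Matrix.ProjectiveSpecialLinearGroup (Fin 4) F) := Cfsg.Agent.S0249.result 4 (by norm_num)
    have h43 := Cfsg.Agent.S0243.result h2 4 (by norm_num)
    have ha := Cfsg.Agent.S0813.result 2 1 le_rfl hn 4 (by norm_num) (by norm_num)
    have hp := card_pgl (F := F) 4 (by norm_num)
    rw [h2] at hp
    simp only [Fin.prod_univ_succ, Fin.prod_univ_zero] at hp h43
    norm_num [Fin.val_succ] at hp h43
    refine false_of_simple hG hQ hJ T hL e ?_ (Or.inl ?_)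
    · rw [h43]; norm_num
    · rw [ha, hp]; norm_num
  · have hs : IsSimpleGroup (Matrix.ProjectiveSpecialLinearGroup (Fin 5) F) := Cfsg.Agent.S0249.result 5 (by norm_num)
    have h43 := Cfsg.Agent.S0243.result h2 5 (by norm_num)
    have ha := Cfsg.Agent.S0813.result 2 1 le_rfl hn 5 (by norm_num) (by norm_num)
    have hp := card_pgl (F := F) 5 (by norm_num)
    rw [h2] at hp
    simp only [Fin.prod_univ_succ, Fin.prod_univ_zero] at hp h43
    norm_num [Fin.val_succ] at hp h43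
    refine false_of_simple hG hQ hJ T hL e ?_ (Or.inr ⟨?_, ?_⟩)
    · rw [h43]; norm_num
    · rw [h43]; norm_num
    · rw [ha, hp]; norm_num

end Cfsg.Agent.H7.J4Row
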